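import Cfsg.Agent.H351.FR.X
import Cfsg.Agent.H7.FR.XTwo
import Cfsg.Agent.H744.FR.Ctr

/-!
# Box (X) of `F₄(q)` (S2452), final form (helper351, helper296, helper7, helper744)
-/

set_option autoImplicit false
set_option linter.unusedSectionVars false

namespace Cfsg.Agent.H351.FR.X

open Cfsg.Agent.ChevalleyStructure.CoxeterGeom Cfsg.Agent.Nodes.RGDChev Cfsg.Agent.KFacts.RgdChevCoord
  Cfsg.Agent.H225.PPow Cfsg.Agent.H701.F43.Cent Cfsg.Agent.H797.FQ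
open Cfsg.Lie
open Cfsg.Agent.H520.FC (PK VK XT)

universe u

variable {K : Type u} [Field K] [Finite K]

theorem cardTwo : CardTwo K := fun _ ha _ hb _ hy _ hy' hne => Cfsg.Agent.H7.FR.card_two ha hb hy hy' hne

theorem three_le (h2 : (2 : K) ≠ 0) : 3 ≤ Nat.card K := by
  have := Fintype.ofFinite K
  rw [Nat.card_eq_fintype_card]
  by_contra h
  have h1 : 1 < Fintype.card K := Fintype.one_lt_card
  have h3 : Fintype.card K = 2 := by omega
  have h4 := Nat.cast_card_eq_zero K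
  rw [h3] at h4
  exact h2 (by exact_mod_cast h4)

/-- **Box (X).** -/
theorem x_box_of' (H' : Central K) (h2 : (2 : K) ≠ 0) {g : ↥(chevF4.group K)} (hg : ∀ z ∈ XT K, g * z = z * g)
    (hgQ : g ∉ VK K {k | k ≠ 3}) :
    Nat.card {x : ↥(VK K {k | k ≠ 3}) // (x : ↥(chevF4.group K)) * g * (x : ↥(chevF4.group K))⁻¹ * g⁻¹ ∈ XT K} ≤
      Nat.card K ^ 12 := by
  have h47 : 47 < chevF4.nroots := by rw [nroots]; norm_num
  have h1 : xc hF (vec chevF4 4 47) (1 : K) ∈ XT K := by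
    rw [xc_e h47]
    exact (mem_XX_vec hF h47).2 ⟨_, rfl⟩
  obtain ⟨v, hv, m, hm, rfl⟩ := cent one_ne_zero (hg _ h1)
  exact x_box_of cardTwo H' (three_le h2) (mul_mem (Subgroup.mem_sup_left hv) (Subgroup.mem_sup_right hm)) hgQ

theorem central (h2 : (2 : K) ≠ 0) : Central K := fun _ hl hl1 hc =>
  Cfsg.Agent.H744.FR.central h2 (three_le h2) hl hl1 hc

/-- **Box (X).** -/
theorem x_box (h2 : (2 : K) ≠ 0) {g : ↥(chevF4.group K)} (hg : ∀ z ∈ XT K, g * z = z * g)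
    (hgQ : g ∉ VK K {k | k ≠ 3}) :
    Nat.card {x : ↥(VK K {k | k ≠ 3}) // (x : ↥(chevF4.group K)) * g * (x : ↥(chevF4.group K))⁻¹ * g⁻¹ ∈ XT K} ≤
      Nat.card K ^ 12 :=
  x_box_of' (central h2) h2 hg hgQ

/-- the same for `g ∈ VV K ⊔ MM K` -/
theorem x_box_sup (h2 : (2 : K) ≠ 0) {g : ↥(chevF4.group K)} (hg : g ∈ VV K ⊔ MM K) (hgQ : g ∉ VV K) :
    Nat.card {x : ↥(VV K) // (x : ↥(chevF4.group K)) * g * (x : ↥(chevF4.group K))⁻¹ * g⁻¹ ∈ XT K} ≤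
      Nat.card K ^ 12 :=
  x_box_of cardTwo (central h2) (three_le h2) hg hgQ

end Cfsg.Agent.H351.FR.X
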